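import Mathlib.AlgebraicGeometry.ProjectiveSpectrum.Basic
import Mathlib.RingTheory.GradedAlgebra.Homogeneous.Ideal
import Mathlib.RingTheory.GradedAlgebra.Radical
import Mathlib.RingTheory.Finiteness.Ideal

/-!
# When do standard opens cover `Proj`, when is `Proj` empty

General version (for a graded ring, any universe for the index type).
-/

set_option autoImplicit false
universe u v
open CategoryTheory CategoryTheory.Limits AlgebraicGeometry

namespace Groth.Agent.Ega2.H270.ProjCover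

section

variable {σ : Type*} {A : Type u} [CommRing A] [SetLike σ A] [AddSubgroupClass σ A]
  (𝒜 : ℕ → σ) [GradedRing 𝒜]

open HomogeneousIdeal

/-- A homogeneous element of positive degree not in the radical of a homogeneous ideal `I` gives a
point of `Proj` in `D_+(a)` whose homogeneous prime ideal contains `I`. -/
theorem exists_point_of_notMem_radical {I : Ideal A} (hI : I.IsHomogeneous 𝒜) {a : A} {d : ℕ}
    (hd : 0 < d) (ha : a ∈ 𝒜 d) (h : a ∉ I.radical) :
    ∃ x : Proj 𝒜, I ≤ x.asHomogeneousIdeal.toIdeal ∧ a ∉ x.asHomogeneousIdeal := by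
  rw [Ideal.radical_eq_sInf, Ideal.mem_sInf] at h
  push Not at h
  obtain ⟨P, ⟨hIP, hP⟩, haP⟩ := h
  have hle : (P.homogeneousCore 𝒜).toIdeal ≤ P := Ideal.toIdeal_homogeneousCore_le 𝒜 P
  have ha' : a ∉ (P.homogeneousCore 𝒜).toIdeal := fun h' => haP (hle h')
  refine ⟨⟨P.homogeneousCore 𝒜, hP.homogeneousCore, ?_⟩, ?_, ha'⟩
  · intro hirr
    exact ha' (hirr (mem_irrelevant_of_mem 𝒜 hd ha))
  · rw [← hI.toIdeal_homogeneousCore_eq_self]
    exact Ideal.homogeneousCore_mono 𝒜 hIP

/-- The opens `D_+(f_i)` (for `f_i` homogeneous) cover `Proj` iff `S_+` is contained in the radical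
of the ideal generated by the `f_i`. -/
theorem iSup_basicOpen_eq_top_iff {ι : Type v} (f : ι → A) (hf : ∀ i, ∃ d : ℕ, f i ∈ 𝒜 d) :
    (⨆ i, Proj.basicOpen 𝒜 (f i)) = ⊤ ↔
      (HomogeneousIdeal.irrelevant 𝒜).toIdeal ≤ (Ideal.span (Set.range f)).radical := by
  constructor
  · intro h
    rw [toIdeal_irrelevant_le]
    intro d hd a ha
    change a ∈ (Ideal.span (Set.range f)).radical
    by_contra hcon
    have hhom : (Ideal.span (Set.range f)).IsHomogeneous 𝒜 := by
      apply Ideal.homogeneous_span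
      rintro _ ⟨i, rfl⟩
      exact hf i
    obtain ⟨x, hx, hax⟩ := exists_point_of_notMem_radical 𝒜 hhom hd ha hcon
    have hx' : x ∈ (⨆ i, Proj.basicOpen 𝒜 (f i)) := by rw [h]; trivial
    obtain ⟨i, hi⟩ := TopologicalSpace.Opens.mem_iSup.mp hx'
    exact hi (hx (Ideal.subset_span ⟨i, rfl⟩))
  · intro h
    refine top_le_iff.mp fun x _ ↦ TopologicalSpace.Opens.mem_iSup.mpr ?_
    by_contra! H
    simp only [Proj.mem_basicOpen, not_not] at H
    refine x.not_irrelevant_le (h.trans ?_)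
    refine (x.isPrime.isRadical.radical_le_iff).mpr ?_
    rwa [Ideal.span_le, Set.range_subset_iff]

/-- `Proj` is empty iff every element of `S_+` is nilpotent. -/
theorem proj_isEmpty_iff :
    IsEmpty (Proj 𝒜) ↔ (HomogeneousIdeal.irrelevant 𝒜).toIdeal ≤ nilradical A := by
  have key := iSup_basicOpen_eq_top_iff 𝒜 (ι := PEmpty.{1}) (fun i => i.elim) (fun i => i.elim)
  rw [iSup_of_empty, Set.range_eq_empty, Ideal.span_empty] at key
  change _ ↔ _ ≤ Ideal.radical (0 : Ideal A)
  refine Iff.trans ?_ key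
  constructor
  · intro h
    ext x
    exact h.elim x
  · intro h
    refine ⟨fun x => ?_⟩
    have : x ∈ (⊥ : (Proj 𝒜).Opens) := by rw [h]; trivial
    exact this

end

section

variable {σ : Type*} {A : Type u} [CommRing A] [SetLike σ A] [AddSubgroupClass σ A]
  (𝒜 : ℕ → σ) [GradedRing 𝒜]

open HomogeneousIdeal

/-- If `S_+` is generated by homogeneous elements of degrees between `1` and `d`, then `S_k` is
contained in `S_+^m` as soon as `k > (m - 1) d`, here in the form `k ≥ m d`. -/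
theorem mem_irrelevant_pow_of_le {ι : Type v} [Finite ι] (g : ι → A) (e : ι → ℕ)
    (he : ∀ i, 0 < e i) (hg : ∀ i, g i ∈ 𝒜 (e i)) (d : ℕ) (hd : ∀ i, e i ≤ d)
    (hspan : (HomogeneousIdeal.irrelevant 𝒜).toIdeal ≤ Ideal.span (Set.range g)) (m : ℕ) :
    ∀ k : ℕ, m * d < k → ∀ a ∈ 𝒜 k, a ∈ (HomogeneousIdeal.irrelevant 𝒜).toIdeal ^ m := by
  classical
  induction m with
  | zero => intro k _ a _; rw [pow_zero, Ideal.one_eq_top]; trivial
  | succ m IH =>
    intro k hk a ha
    have hk0 : 0 < k := by omega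
    have hmem : a ∈ Ideal.span (Set.range g) := hspan (mem_irrelevant_of_mem 𝒜 hk0 ha)
    have : Fintype ι := Fintype.ofFinite ι
    obtain ⟨c, hc⟩ := (Ideal.mem_span_range_iff_exists_fun).mp hmem
    have hcomp : a = ∑ i, (DirectSum.decompose 𝒜 (c i) (k - e i) : A) * g i := by
      have h1 : (DirectSum.decompose 𝒜 a k : A) = a := DirectSum.decompose_of_mem_same 𝒜 ha
      rw [← h1]
      conv_lhs => rw [← hc]
      rw [DirectSum.decompose_sum, DFinsupp.finsetSum_apply, AddSubmonoidClass.coe_finsetSum]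
      refine Finset.sum_congr rfl fun i _ => ?_
      have hle : e i ≤ k := (hd i).trans (by nlinarith)
      rw [DirectSum.coe_decompose_mul_of_right_mem_of_le 𝒜 (hg i) hle]
    rw [hcomp, pow_succ]
    refine Ideal.sum_mem _ fun i _ => Ideal.mul_mem_mul ?_ (mem_irrelevant_of_mem 𝒜 (he i) (hg i))
    refine IH (k - e i) ?_ _ (SetLike.coe_mem _)
    have h1 := hd i
    have h2 : (m + 1) * d = m * d + d := by ring
    omega

/-- If `S_+` is a finitely generated ideal, it is generated by finitely many homogeneous elements of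
positive degree. -/
theorem exists_homogeneous_generators
    (hfg : (HomogeneousIdeal.irrelevant 𝒜).toIdeal.FG) :
    ∃ (s : Finset A), (∀ a ∈ s, ∃ d : ℕ, 0 < d ∧ a ∈ 𝒜 d) ∧
      (HomogeneousIdeal.irrelevant 𝒜).toIdeal = Ideal.span (s : Set A) := by
  classical
  have h0 : (HomogeneousIdeal.irrelevant 𝒜).toIdeal = Ideal.span (⋃ i > 0, (𝒜 i : Set A)) :=
    irrelevant_eq_span 𝒜
  have hfg' : (Submodule.span A (⋃ i > 0, (𝒜 i : Set A))).FG := by
    change (Ideal.span _).FG
    rw [← h0]; exact hfg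
  obtain ⟨t, ht, hspan⟩ := Submodule.fg_span_iff_fg_span_finset_subset _ |>.mp hfg'
  refine ⟨t, ?_, ?_⟩
  · intro a ha
    have := ht ha
    simp only [Set.mem_iUnion] at this
    obtain ⟨d, hd, had⟩ := this
    exact ⟨d, hd, had⟩
  · rw [h0]; exact hspan

/-- If `S_+` is a finitely generated ideal, then for every `m` all components `S_k` with `k` large are
contained in `S_+ ^ m`. -/
theorem exists_le_irrelevant_pow
    (hfg : (HomogeneousIdeal.irrelevant 𝒜).toIdeal.FG) (m : ℕ) :
    ∃ n : ℕ, ∀ k : ℕ, n ≤ k → ∀ a ∈ 𝒜 k, a ∈ (HomogeneousIdeal.irrelevant 𝒜).toIdeal ^ m := by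
  classical
  obtain ⟨s, hs, hspan⟩ := exists_homogeneous_generators 𝒜 hfg
  choose! e he hmem using hs
  refine ⟨m * (s.sup e) + 1, fun k hk => ?_⟩
  refine mem_irrelevant_pow_of_le 𝒜 (ι := s) (fun i => i.1) (fun i => e i.1) (fun i => he _ i.2)
    (fun i => hmem _ i.2) (s.sup e) (fun i => Finset.le_sup (f := e) i.2) ?_ m k (by omega)
  rw [hspan]
  apply Ideal.span_mono
  intro a ha
  exact ⟨⟨a, ha⟩, rfl⟩

/-- If `S_+` is a finitely generated ideal, `Proj` is empty iff `S_k = 0` for all large `k`. -/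
theorem proj_isEmpty_iff_eventually_zero
    (hfg : (HomogeneousIdeal.irrelevant 𝒜).toIdeal.FG) :
    IsEmpty (Proj 𝒜) ↔ ∃ n : ℕ, ∀ k : ℕ, n ≤ k → ∀ a ∈ 𝒜 k, a = 0 := by
  rw [proj_isEmpty_iff]
  constructor
  · intro h
    obtain ⟨m, hm⟩ := Ideal.exists_pow_le_of_le_radical_of_fg (I := (irrelevant 𝒜).toIdeal)
      (J := (0 : Ideal A)) h hfg
    obtain ⟨n, hn⟩ := exists_le_irrelevant_pow 𝒜 hfg m
    refine ⟨n, fun k hk a ha => ?_⟩
    have := hm (hn k hk a ha)
    simpa using this
  · rintro ⟨n, hn⟩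
    rw [toIdeal_irrelevant_le]
    intro d hd a ha
    change a ∈ nilradical A
    rw [mem_nilradical]
    refine ⟨n, hn (n * d) (Nat.le_mul_of_pos_right n hd) _ ?_⟩
    have h2 : a ^ n ∈ 𝒜 (n • d) := SetLike.pow_mem_graded n ha
    rwa [smul_eq_mul] at h2

end

end Groth.Agent.Ega2.H270.ProjCover
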